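import Mathlib

/-!
The Jacobi–Trudi identity and the resulting orthogonality relation for the numbers `NN μ ν` of
matrices of natural numbers with row sums `μ` and column sums `ν`.
-/

set_option autoImplicit false

namespace CfsgLib.GLFlag

open Finset MvPolynomial

variable {n : ℕ}

/-- The number of matrices of natural numbers with row sums `μ` and column sums `ν`. -/
noncomputable def NN (μ ν : Fin n → ℕ) : ℕ :=
  Nat.card {M : Fin n → Fin n → ℕ // (∀ s, ∑ t, M s t = μ s) ∧ ∀ t, ∑ s, M s t = ν t}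

theorem NN_comp (μ ν : Fin n → ℕ) (σ τ : Equiv.Perm (Fin n)) : NN (μ ∘ σ) (ν ∘ τ) = NN μ ν := by
  refine Nat.card_congr (Equiv.subtypeEquiv (Equiv.arrowCongr σ (Equiv.arrowCongr τ (.refl ℕ)))
    fun M => and_congr ?_ ?_)
  · refine σ.forall_congr fun s => ?_
    simp only [Equiv.arrowCongr_apply, Function.comp, Equiv.symm_apply_apply, Equiv.coe_refl, id]
    rw [Equiv.sum_comp τ.symm (M s)]
  · refine τ.forall_congr fun t => ?_
    simp only [Equiv.arrowCongr_apply, Function.comp, Equiv.symm_apply_apply, Equiv.coe_refl, id]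
    rw [Equiv.sum_comp σ.symm (fun s => M s t)]

/-- The complete homogeneous symmetric polynomial. -/
noncomputable def hh (n m : ℕ) : MvPolynomial (Fin n) ℤ :=
  ∑ a ∈ finsuppAntidiag univ m, monomial a 1

/-- A function on `Fin n` as an exponent vector. -/
noncomputable abbrev fs (ν : Fin n → ℕ) : Fin n →₀ ℕ := Finsupp.equivFunOnFinite.symm ν

theorem prod_X_pow_eq (ν : Fin n → ℕ) :
    ∏ k, (X k : MvPolynomial (Fin n) ℤ) ^ ν k = monomial (fs ν) 1 := by
  rw [monomial_eq, C_1, one_mul, Finsupp.prod_fintype _ _ (by simp)]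
  simp

theorem coeff_prod_hh (μ ν : Fin n → ℕ) : coeff (fs ν) (∏ s, hh n (μ s)) = NN μ ν := by
  classical
  simp only [hh]
  rw [Finset.prod_univ_sum, coeff_sum]
  simp only [← monomial_sum_one, coeff_monomial]
  rw [Finset.sum_boole, NN, ← Nat.card_eq_finsetCard]
  congr 1
  refine Nat.card_congr (Equiv.subtypeEquiv
    (Equiv.piCongrRight fun _ => Finsupp.equivFunOnFinite) fun p => ?_)
  simp only [mem_filter, Fintype.mem_piFinset, mem_finsuppAntidiag, subset_univ, and_true,
    Finsupp.ext_iff, Finsupp.finsetSum_apply]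
  rfl

/-- The entries of the Jacobi–Trudi matrix. -/
noncomputable def hz (n r j : ℕ) : MvPolynomial (Fin n) ℤ := if j ≤ r then hh n (r - j) else 0

theorem exists_jt_matrix : ∃ M : Matrix (Fin n) (Fin n) (MvPolynomial (Fin n) ℤ),
    ∀ (r : ℕ) (k : Fin n), X k ^ r = ∑ j : Fin n, hz n r j * M j k := by
  classical
  let G : Fin n → PowerSeries (MvPolynomial (Fin n) ℤ) := fun k => PowerSeries.mk fun m => X k ^ m
  let E : Fin n → Polynomial (MvPolynomial (Fin n) ℤ) := fun k =>
    ∏ l ∈ univ.erase k, (1 - Polynomial.C (X l) * Polynomial.X)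
  have hG : ∀ k, G k * (1 - PowerSeries.C (X k) * PowerSeries.X) = 1 := by
    intro k
    ext1 m
    rw [mul_sub, mul_one, ← mul_assoc]
    cases m with
    | zero => simp [G]
    | succ m => simp [G, PowerSeries.coeff_succ_mul_X, pow_succ, PowerSeries.coeff_one]
  have hH : ∀ m, PowerSeries.coeff m (∏ k, G k) = hh n m := by
    intro m
    rw [PowerSeries.coeff_prod, hh]
    refine sum_congr rfl fun a _ => ?_
    simp only [G, PowerSeries.coeff_mk]
    rw [prod_X_pow_eq]
    simp
  have hE : ∀ k, (E k : PowerSeries (MvPolynomial (Fin n) ℤ)) * ∏ l, G l = G k := by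
    intro k
    have : (E k : PowerSeries (MvPolynomial (Fin n) ℤ)) =
        ∏ l ∈ univ.erase k, (1 - PowerSeries.C (X l) * PowerSeries.X) := by
      have := map_prod (Polynomial.coeToPowerSeries.ringHom (R := MvPolynomial (Fin n) ℤ))
        (fun l => 1 - Polynomial.C (X l) * Polynomial.X) (univ.erase k)
      exact this.trans (prod_congr rfl fun l _ => by simp)
    rw [this, ← mul_prod_erase univ G (mem_univ k), mul_left_comm, ← prod_mul_distrib,
      prod_eq_one fun l _ => by rw [mul_comm, hG], mul_one]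
  have hdeg : ∀ (k : Fin n) j, n ≤ j → (E k).coeff j = 0 := by
    intro k j hj
    apply Polynomial.coeff_eq_zero_of_natDegree_lt
    refine lt_of_le_of_lt (Polynomial.natDegree_prod_le _ _) (lt_of_le_of_lt
      (sum_le_card_nsmul _ _ 1 fun l _ => by compute_degree) ?_)
    have := k.pos
    simp only [mem_univ, card_erase_of_mem, card_univ, Fintype.card_fin, smul_eq_mul, mul_one]
    omega
  refine ⟨fun j k => (E k).coeff j, fun r k => ?_⟩
  have h := congrArg (PowerSeries.coeff r) (hE k)
  rw [PowerSeries.coeff_mul, Finset.Nat.sum_antidiagonal_eq_sum_range_succ_mk] at h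
  simp only [G, PowerSeries.coeff_mk, Polynomial.coeff_coe] at h
  simp only [G] at hH
  simp only [hH] at h
  rw [← h, Fin.sum_univ_eq_sum_range (fun j => hz n r j * (E k).coeff j)]
  simp only [hz, ite_mul, zero_mul]
  rw [← sum_filter, sum_congr rfl fun j _ => mul_comm ((E k).coeff j) _]
  refine (sum_subset (fun j hj => ?_) fun j hj hj' => ?_).symm
  · simp only [mem_filter, mem_range] at hj ⊢; omega
  · simp only [mem_filter, mem_range, not_and] at hj hj'
    rw [hdeg k j (by by_contra h; exact hj' (by omega) (by omega)), mul_zero]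

/-- The Jacobi–Trudi identity. -/
theorem jacobi_trudi (l : Fin n → ℕ) :
    (Matrix.of fun i k => (X k : MvPolynomial (Fin n) ℤ) ^ l i).det =
      (Matrix.of fun i (j : Fin n) => hz n (l i) j).det *
        (Matrix.of fun (i k : Fin n) => (X k : MvPolynomial (Fin n) ℤ) ^ (i : ℕ)).det := by
  obtain ⟨M, hM⟩ := exists_jt_matrix (n := n)
  have h : ∀ l : Fin n → ℕ, (Matrix.of fun i k => (X k : MvPolynomial (Fin n) ℤ) ^ l i).det =
      (Matrix.of fun i (j : Fin n) => hz n (l i) j).det * M.det := fun l => by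
    rw [← Matrix.det_mul]
    congr 1
    ext1 i k
    rw [Matrix.mul_apply, Matrix.of_apply, hM]
    rfl
  have h1 : (Matrix.of fun (i j : Fin n) => hz n i j).det = 1 := by
    rw [Matrix.det_of_isLowerTriangular]
    · simp [hz, hh]
    · intro i j hij
      exact if_neg (not_le.2 hij)
  rw [h, h fun i => i, h1, one_mul]

theorem det_pow_eq (l : Fin n → ℕ) :
    (Matrix.of fun i k => (X k : MvPolynomial (Fin n) ℤ) ^ l i).det =
      ∑ σ : Equiv.Perm (Fin n), monomial (fs (l ∘ σ)) (Equiv.Perm.sign σ : ℤ) := by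
  rw [Matrix.det_apply']
  refine sum_congr rfl fun σ _ => ?_
  simp only [Matrix.of_apply]
  rw [show ∏ k, (X k : MvPolynomial (Fin n) ℤ) ^ l (σ k) = _ from prod_X_pow_eq (l ∘ σ),
    ← map_intCast (C : ℤ →+* MvPolynomial (Fin n) ℤ), C_mul_monomial]
  simp

theorem det_hz_eq (l : Fin n → ℕ) :
    (Matrix.of fun i (j : Fin n) => hz n (l i) j).det = ∑ κ : Equiv.Perm (Fin n),
      if ∀ i, (κ i : ℕ) ≤ l i then C (Equiv.Perm.sign κ : ℤ) * ∏ i, hh n (l i - κ i) else 0 := by
  rw [← Matrix.det_transpose, Matrix.det_apply']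
  refine sum_congr rfl fun κ _ => ?_
  simp only [Matrix.transpose_apply, Matrix.of_apply, hz, prod_ite_zero, mem_univ, true_imp_iff]
  split_ifs <;> simp

/-- Orthonormality of the Jacobi–Trudi determinants. -/
theorem jt_orthogonality {l l' : Fin n → ℕ} (hl : StrictMono l) (hl' : StrictMono l') :
    (∑ κ : Equiv.Perm (Fin n), ∑ κ' : Equiv.Perm (Fin n),
      if (∀ i, (κ i : ℕ) ≤ l i) ∧ ∀ i, (κ' i : ℕ) ≤ l' i then
        (Equiv.Perm.sign κ : ℤ) * (Equiv.Perm.sign κ' : ℤ) *
          NN (fun i => l i - κ i) (fun i => l' i - κ' i) else 0) = if l = l' then 1 else 0 := by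
  classical
  have h := congrArg (coeff (fs l')) (jacobi_trudi l)
  rw [det_pow_eq, det_pow_eq, det_hz_eq, coeff_sum, sum_mul_sum, coeff_sum] at h
  simp only [coeff_sum, coeff_monomial, coeff_mul_monomial'] at h
  rw [sum_eq_single 1 (fun σ _ hσ => if_neg fun e => hσ ?_) (by simp)] at h
  · simp only [Equiv.Perm.coe_one, Function.comp_id, EmbeddingLike.apply_eq_iff_eq,
      Equiv.Perm.sign_one, Units.val_one] at h
    rw [h]
    refine sum_congr rfl fun κ _ => sum_congr rfl fun κ' _ => ?_
    have e : (fs ((fun i : Fin n => (i : ℕ)) ∘ κ') ≤ fs l') ↔ ∀ i, (κ' i : ℕ) ≤ l' i := by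
      simp [Finsupp.le_def]
    by_cases h1 : ∀ i, (κ i : ℕ) ≤ l i <;> by_cases h2 : ∀ i, (κ' i : ℕ) ≤ l' i
    · rw [if_pos ⟨h1, h2⟩, if_pos (e.2 h2), if_pos h1, coeff_C_mul,
        show fs l' - fs ((fun i : Fin n => (i : ℕ)) ∘ κ') = fs fun i => l' i - κ' i by
          ext i; simp, coeff_prod_hh]
      ring
    · rw [if_neg fun h => h2 h.2, if_neg (mt e.1 h2)]
    · rw [if_neg fun h => h1 h.1, if_neg h1]; simp
    · rw [if_neg fun h => h2 h.2, if_neg (mt e.1 h2)]
  · have e' : l ∘ σ = l' := Finsupp.equivFunOnFinite.symm.injective e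
    have h1 : StrictMono σ := fun i j hij => hl.lt_iff_lt.1 (by
      have := hl' hij
      rwa [← e'] at this)
    refine Equiv.ext fun i => ?_
    exact DFunLike.congr_fun
      (Subsingleton.elim (h1.orderIsoOfSurjective σ σ.surjective) (OrderIso.refl _)) i

end CfsgLib.GLFlag
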