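import Mathlib
import Cfsg.Prelude.Def_LinearParabolics
import Cfsg.Agent.Lib.GLFlag.JacobiTrudi
import Cfsg.Agent.Lib.Char.Ortho

/-!
Bruhat decomposition of `GL(n, F)`, double cosets of standard parabolic subgroups and of Young
subgroups, inner products of the permutation characters on partial flags.
-/

set_option autoImplicit false

namespace CfsgLib.GLFlag

open Finset Matrix Cfsg CfsgLib.Char

/-- Burnside's lemma for double cosets. -/
theorem sum_fixed_mul_fixed {G X : Type*} [Group G] [Fintype G] (H K : Subgroup G) (φ : G → X)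
    (hφ : ∀ g g', φ g = φ g' ↔ ∃ h ∈ H, ∃ k ∈ K, g' = h * g * k) :
    (Nat.card G : ℂ)⁻¹ * ∑ g, fixedPointCharacter H g * fixedPointCharacter K g =
      Nat.card (Set.range φ) := by
  classical
  have := Fintype.ofFinite (Quotient (MulAction.orbitRel G ((G ⧸ H) × (G ⧸ K))))
  have h1 := MulAction.sum_card_fixedBy_eq_card_orbits_mul_card_group G ((G ⧸ H) × (G ⧸ K))
  have h2 : ∀ g : G, fixedPointCharacter H g * fixedPointCharacter K g =
      (Fintype.card (MulAction.fixedBy ((G ⧸ H) × (G ⧸ K)) g) : ℂ) := by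
    intro g
    rw [fixedPointCharacter, fixedPointCharacter, ← Nat.cast_mul, ← Nat.card_prod,
      ← Nat.card_eq_fintype_card]
    congr 1
    refine Nat.card_congr ((Equiv.subtypeProdEquivProd).symm.trans
      (Equiv.subtypeEquivRight fun p => ?_))
    simp [Prod.ext_iff]
  simp only [h2]
  rw [← Nat.cast_sum, h1, Nat.cast_mul, ← Nat.card_eq_fintype_card (α := G), mul_comm,
    mul_inv_cancel_right₀ natCard_ne_zero, ← Nat.card_eq_fintype_card]
  congr 1
  let ψ : (G ⧸ H) × (G ⧸ K) → Set.range φ := fun p => ⟨φ (p.1.out⁻¹ * p.2.out), _, rfl⟩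
  have hψ : ∀ x y : G, (ψ ((x : G ⧸ H), (y : G ⧸ K)) : X) = φ (x⁻¹ * y) := by
    intro x y
    obtain ⟨h, hh⟩ := QuotientGroup.mk_out_eq_mul H x
    obtain ⟨k, hk⟩ := QuotientGroup.mk_out_eq_mul K y
    symm
    refine (hφ _ _).2 ⟨h⁻¹, inv_mem h.2, k, k.2, ?_⟩
    simp only [hh, hk]
    group
  have hrel : ∀ p p', MulAction.orbitRel G ((G ⧸ H) × (G ⧸ K)) p p' ↔ ψ p = ψ p' := by
    rintro ⟨x, y⟩ ⟨x', y'⟩
    induction x using QuotientGroup.induction_on with | H x => ?_
    induction y using QuotientGroup.induction_on with | H y => ?_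
    induction x' using QuotientGroup.induction_on with | H x' => ?_
    induction y' using QuotientGroup.induction_on with | H y' => ?_
    rw [MulAction.orbitRel_apply, Subtype.ext_iff, hψ, hψ, hφ]
    constructor
    · rintro ⟨g, hg⟩
      simp only [Prod.smul_mk, MulAction.Quotient.smul_coe, smul_eq_mul, Prod.mk.injEq,
        QuotientGroup.eq] at hg
      exact ⟨_, hg.1, _, inv_mem hg.2, by group⟩
    · rintro ⟨h, hh, k, hk, e⟩
      refine ⟨x * h⁻¹ * x'⁻¹, ?_⟩
      simp only [Prod.smul_mk, MulAction.Quotient.smul_coe, smul_eq_mul, Prod.mk.injEq,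
        QuotientGroup.eq]
      refine ⟨by simpa using hh, ?_⟩
      rw [show x * h⁻¹ * x'⁻¹ * y' = x * h⁻¹ * (x'⁻¹ * y') by group, e]
      convert inv_mem hk using 1
      group
  refine Nat.card_congr (Equiv.ofBijective (Quotient.lift ψ fun p p' h => (hrel p p').1 h) ⟨?_, ?_⟩)
  · rintro ⟨p⟩ ⟨p'⟩ h
    exact Quotient.sound ((hrel p p').2 h)
  · rintro ⟨_, g, rfl⟩
    exact ⟨Quotient.mk _ (((1 : G) : G ⧸ H), (g : G ⧸ K)), Subtype.ext (by
      change (ψ _ : X) = _
      rw [hψ, inv_one, one_mul])⟩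

variable {n : ℕ}

/-- The permutations preserving the labelling `a`. -/
def Yng (a : Fin n → Fin n) : Subgroup (Equiv.Perm (Fin n)) where
  carrier := {σ | ∀ i, a (σ i) = a i}
  mul_mem' := fun {x} {y} hx hy i => by
    change a (x (y i)) = a i
    rw [hx, hy]
  one_mem' := fun _ => rfl
  inv_mem' := fun {x} hx i => by
    have h := hx (x⁻¹ i)
    simpa using h.symm

theorem mem_Yng {a : Fin n → Fin n} {σ : Equiv.Perm (Fin n)} : σ ∈ Yng a ↔ ∀ i, a (σ i) = a i :=
  Iff.rfl

/-- The intersection matrix of a permutation relative to two labellings. -/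
def MM (a b : Fin n → Fin n) (w : Equiv.Perm (Fin n)) : Fin n → Fin n → ℕ :=
  fun s t => #{j | a (w j) = s ∧ b j = t}

theorem exists_equiv_of_card_fiber {α β γ : Type*} [Fintype α] [Fintype β] [DecidableEq γ]
    (f : α → γ) (g : β → γ) (h : ∀ c, #{x | f x = c} = #{y | g y = c}) :
    ∃ e : α ≃ β, ∀ x, g (e x) = f x :=
  ⟨Equiv.ofFiberEquiv fun c => Fintype.equivOfCardEq (by
    rw [Fintype.card_subtype, Fintype.card_subtype, h]), Equiv.ofFiberEquiv_map _⟩

theorem MM_eq_iff (a b : Fin n → Fin n) (w w' : Equiv.Perm (Fin n)) :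
    MM a b w = MM a b w' ↔ ∃ σ ∈ Yng a, ∃ τ ∈ Yng b, w' = σ * w * τ := by
  constructor
  · intro h
    obtain ⟨τ, hτ⟩ := exists_equiv_of_card_fiber (fun j => (a (w' j), b j))
      (fun j => (a (w j), b j)) (fun c => by
        simpa [MM, Prod.ext_iff] using (congrFun (congrFun h c.1) c.2).symm)
    simp only [Prod.mk.injEq] at hτ
    refine ⟨w' * τ⁻¹ * w⁻¹, fun i => ?_, τ, fun i => (hτ i).2, by group⟩
    have := (hτ ((τ⁻¹ : Equiv.Perm (Fin n)) (w⁻¹ i))).1
    simpa using this.symm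
  · rintro ⟨σ, hσ, τ, hτ, rfl⟩
    funext s t
    refine (card_equiv τ fun j => ?_).symm
    simp [mem_Yng.1 hσ, mem_Yng.1 hτ]

theorem card_range_MM {a b : Fin n → Fin n} {μ ν : Fin n → ℕ} (ha : ∀ s, #{i | a i = s} = μ s)
    (hb : ∀ t, #{i | b i = t} = ν t) : Nat.card (Set.range (MM a b)) = NN μ ν := by
  refine Nat.card_congr (Equiv.subtypeEquivRight fun M => ⟨?_, ?_⟩)
  · rintro ⟨w, rfl⟩
    refine ⟨fun s => ?_, fun t => ?_⟩
    · rw [← ha, ← card_equiv w (s := {j | a (w j) = s}) (by simp),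
        card_eq_sum_card_fiberwise (f := b) (t := univ) (by simp)]
      simp only [MM, filter_filter]
    · rw [← hb, card_eq_sum_card_fiberwise (f := fun j => a (w j)) (t := univ) (by simp)]
      simp only [MM, filter_filter, and_comm]
  · rintro ⟨h1, h2⟩
    let T := Σ p : Fin n × Fin n, Fin (M p.1 p.2)
    have hT : ∀ (P : Fin n × Fin n → Prop) [DecidablePred P],
        #{x : T | P x.1} = ∑ p with P p, M p.1 p.2 := by
      intro P _
      rw [card_eq_sum_card_fiberwise (f := fun x : T => x.1) (t := {p | P p}) (by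
        intro x hx; simpa using hx)]
      refine sum_congr rfl fun p hp => ?_
      rw [filter_filter, filter_congr (q := fun x : T => x.1 = p) fun x _ =>
        ⟨fun h => h.2, fun h => ⟨h ▸ (mem_filter.1 hp).2, h⟩⟩, ← Fintype.card_subtype,
        Fintype.card_congr (Equiv.sigmaSubtype p), Fintype.card_fin]
    obtain ⟨e1, he1⟩ := exists_equiv_of_card_fiber a (fun x : T => x.1.1) fun s => by
      rw [ha, hT (fun p => p.1 = s), ← h1, sum_filter, Fintype.sum_prod_type]
      simp
    obtain ⟨e2, he2⟩ := exists_equiv_of_card_fiber b (fun x : T => x.1.2) fun t => by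
      rw [hb, hT (fun p => p.2 = t), ← h2, sum_filter, Fintype.sum_prod_type]
      simp
    refine ⟨e2.trans e1.symm, funext fun s => funext fun t => ?_⟩
    have := hT (fun p => p = (s, t))
    rw [filter_eq', if_pos (mem_univ _), sum_singleton] at this
    rw [← this]
    refine card_equiv e2 fun j => ?_
    simp [← he1, ← he2, Prod.ext_iff]

theorem inner_young {a b : Fin n → Fin n} {μ ν : Fin n → ℕ} (ha : ∀ s, #{i | a i = s} = μ s)
    (hb : ∀ t, #{i | b i = t} = ν t) :
    (Nat.card (Equiv.Perm (Fin n)) : ℂ)⁻¹ *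
      ∑ g, fixedPointCharacter (Yng a) g * fixedPointCharacter (Yng b) g = NN μ ν := by
  rw [sum_fixed_mul_fixed _ _ _ (MM_eq_iff a b), card_range_MM ha hb]

variable {F : Type*} [Field F]

/-- The block upper triangular matrices for the labelling `a`. -/
def Par (F : Type*) [Field F] (a : Fin n → Fin n) : Subgroup (GL (Fin n) F) where
  carrier := {g | (g : Matrix (Fin n) (Fin n) F).BlockTriangular a}
  mul_mem' := fun ha hb => Matrix.BlockTriangular.mul ha hb
  one_mem' := Matrix.blockTriangular_one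
  inv_mem' := fun {x} hx => by
    change ((x⁻¹ : GL (Fin n) F) : Matrix (Fin n) (Fin n) F).BlockTriangular a
    have : Invertible (x : Matrix (Fin n) (Fin n) F) := x.invertible
    rw [Matrix.coe_units_inv]
    exact Matrix.blockTriangular_inv_of_blockTriangular hx

theorem mem_Par {a : Fin n → Fin n} {g : GL (Fin n) F} :
    g ∈ Par F a ↔ ∀ i j, a j < a i → (g : Matrix (Fin n) (Fin n) F) i j = 0 := Iff.rfl

theorem Par_id_le {a : Fin n → Fin n} (ha : Monotone a) : Par F id ≤ Par F a :=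
  fun _ hg => mem_Par.2 fun i j h => mem_Par.1 hg i j (ha.reflect_lt h)

/-- Permutation matrices. -/
def pmat (F : Type*) [Field F] : Equiv.Perm (Fin n) →* GL (Fin n) F :=
  (Matrix.permMatrixHom (R := F)).toHomUnits

theorem pmat_apply (w : Equiv.Perm (Fin n)) (i j : Fin n) :
    (pmat F w : Matrix (Fin n) (Fin n) F) i j = if i = w j then 1 else 0 := by
  simp [pmat, Equiv.Perm.permMatrix, PEquiv.toMatrix_apply, Equiv.symm_apply_eq]

theorem pmat_mulVec (w : Equiv.Perm (Fin n)) (v : Fin n → F) (i : Fin n) :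
    ((pmat F w : Matrix (Fin n) (Fin n) F) *ᵥ v) (w i) = v i := by
  simp [mulVec, dotProduct, pmat_apply]

theorem pmat_mul_apply (w : Equiv.Perm (Fin n)) (M : Matrix (Fin n) (Fin n) F) (i j : Fin n) :
    ((pmat F w : Matrix (Fin n) (Fin n) F) * M) (w i) j = M i j := by
  simp [Matrix.mul_apply, pmat_apply]

theorem pmat_mem_Par {a : Fin n → Fin n} {σ : Equiv.Perm (Fin n)} (h : σ ∈ Yng a) :
    pmat F σ ∈ Par F a := mem_Par.2 fun i j hij => by
  rw [pmat_apply, if_neg]
  rintro rfl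
  exact hij.ne (mem_Yng.1 h j).symm

theorem exists_row_ne_zero (g : GL (Fin n) F) (i : Fin n) :
    ∃ j, (g : Matrix (Fin n) (Fin n) F) i j ≠ 0 := by
  by_contra h
  push Not at h
  exact g.det_ne_zero (Matrix.det_eq_zero_of_row_eq_zero i h)

/-- The Bruhat decomposition. -/
theorem bruhat [Finite F] (g : GL (Fin n) F) :
    ∃ (w : Equiv.Perm (Fin n)), ∃ b ∈ Par F id, ∃ b' ∈ Par F id, g = b * pmat F w * b' := by
  obtain ⟨l, l1, l2⟩ : ∃ l : GL (Fin n) F → Fin n → Fin n,
      (∀ (x : GL (Fin n) F) i, (x : Matrix (Fin n) (Fin n) F) i (l x i) ≠ 0) ∧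
      ∀ (x : GL (Fin n) F) i j, j < l x i → (x : Matrix (Fin n) (Fin n) F) i j = 0 := by
    classical
    have hne : ∀ (x : GL (Fin n) F) (i : Fin n),
        (univ.filter fun j => (x : Matrix (Fin n) (Fin n) F) i j ≠ 0).Nonempty := fun x i => by
      obtain ⟨j, hj⟩ := exists_row_ne_zero x i
      exact ⟨j, by simpa using hj⟩
    refine ⟨fun x i => min' _ (hne x i), fun x i => (mem_filter.1 (min'_mem _ (hne x i))).2,
      fun x i j h => ?_⟩
    by_contra h'
    exact h.not_ge (min'_le _ _ (by simpa using h'))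
  have l3 : ∀ (x : GL (Fin n) F) i k, (∀ j < k, (x : Matrix (Fin n) (Fin n) F) i j = 0) →
      k ≤ l x i := fun x i k h => not_lt.1 fun h' => l1 x i (h _ h')
  obtain ⟨b, hb⟩ := Finite.exists_max fun b : Par F (id : Fin n → Fin n) =>
    ∑ i, (l (b * g) i : ℕ)
  set x := (b : GL (Fin n) F) * g with hx
  have key : ∀ i i', i < i' → l x i ≠ l x i' := by
    intro i i' hii' e
    let c := -((x : Matrix (Fin n) (Fin n) F) i (l x i) / (x : Matrix (Fin n) (Fin n) F) i' (l x i'))
    let t : GL (Fin n) F := Matrix.GeneralLinearGroup.mkOfDetNeZero (transvection i i' c)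
      (by rw [det_transvection_of_ne _ _ hii'.ne]; exact one_ne_zero)
    have ht : t ∈ Par F (id : Fin n → Fin n) := blockTriangular_transvection (b := id) hii'.le c
    have e1 : ∀ j, ((t * x : GL (Fin n) F) : Matrix (Fin n) (Fin n) F) i j =
        (x : Matrix (Fin n) (Fin n) F) i j + c * (x : Matrix (Fin n) (Fin n) F) i' j :=
      fun j => transvection_mul_apply_same i i' j c (x : Matrix (Fin n) (Fin n) F)
    have e2 : ∀ k, k ≠ i → ∀ j, ((t * x : GL (Fin n) F) : Matrix (Fin n) (Fin n) F) k j =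
        (x : Matrix (Fin n) (Fin n) F) k j :=
      fun k hk j => transvection_mul_apply_of_ne i i' k j hk c (x : Matrix (Fin n) (Fin n) F)
    have h1 : ∀ k, l x k ≤ l (t * x) k := fun k => l3 _ _ _ fun j hj => by
      by_cases hk : k = i
      · subst hk
        rw [e1, l2 _ _ _ hj, l2 _ _ _ (e ▸ hj), mul_zero, add_zero]
      · rw [e2 k hk, l2 _ _ _ hj]
    have h2 : l x i < l (t * x) i := lt_of_le_of_ne (h1 i) fun e' => l1 (t * x) i (by
      rw [← e', e1]
      have := l1 x i'
      simp only [c]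
      rw [← e] at this ⊢
      field_simp
      ring)
    have h3 := hb ⟨t * b, mul_mem ht b.2⟩
    simp only [mul_assoc, ← hx] at h3
    exact h3.not_gt (sum_lt_sum (fun k _ => h1 k) ⟨i, mem_univ _, h2⟩)
  have hinj : Function.Injective (l x) := fun i i' e => by
    rcases lt_trichotomy i i' with h | h | h
    · exact absurd e (key _ _ h)
    · exact h
    · exact absurd e.symm (key _ _ h)
  let w : Equiv.Perm (Fin n) := Equiv.ofBijective _ (Finite.injective_iff_bijective.1 hinj)
  refine ⟨w⁻¹, b⁻¹, inv_mem b.2, pmat F w * x, mem_Par.2 fun i j hij => ?_, ?_⟩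
  · obtain ⟨i, rfl⟩ := w.surjective i
    rw [Units.val_mul, pmat_mul_apply]
    exact l2 _ _ _ hij
  · rw [hx, map_inv]; group

/-- The coordinate subspace on the positions with label below `s`. -/
def Low (a : Fin n → Fin n) (s : ℕ) (v : Fin n → F) : Prop := ∀ i, s ≤ a i → v i = 0

theorem Low.mulVec {a : Fin n → Fin n} {s : ℕ} {v : Fin n → F} (hv : Low a s v) {p : GL (Fin n) F}
    (hp : p ∈ Par F a) : Low a s ((p : Matrix (Fin n) (Fin n) F) *ᵥ v) := fun i hi => by
  rw [Matrix.mulVec, dotProduct]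
  refine sum_eq_zero fun j _ => ?_
  by_cases hj : s ≤ a j
  · rw [hv j hj, mul_zero]
  · rw [mem_Par.1 hp i j (by rw [Fin.lt_def]; omega), zero_mul]

theorem low_mulVec_iff {a : Fin n → Fin n} {s : ℕ} {v : Fin n → F} {p : GL (Fin n) F}
    (hp : p ∈ Par F a) : Low a s ((p : Matrix (Fin n) (Fin n) F) *ᵥ v) ↔ Low a s v :=
  ⟨fun h => by simpa [mulVec_mulVec] using h.mulVec (inv_mem hp), fun h => h.mulVec hp⟩

theorem card_supported {m : Type*} [Fintype m] (P : m → Prop) [DecidablePred P] :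
    Nat.card {v : m → F // ∀ j, ¬ P j → v j = 0} = Nat.card F ^ #{j | P j} := by
  rw [← Fintype.card_subtype, ← Nat.card_eq_fintype_card, ← Nat.card_fun]
  refine Nat.card_congr ⟨fun v j => v.1 j, fun u => ⟨fun j => if h : P j then u ⟨j, h⟩ else 0,
    fun j hj => dif_neg hj⟩, fun v => Subtype.ext (funext fun j => ?_), fun u => funext fun j => ?_⟩
  · by_cases h : P j
    · simp [h]
    · simp [h, v.2 j h]
  · simp [j.2]

theorem MM_eq_of_Par [Finite F] {a b : Fin n → Fin n} {w w' : Equiv.Perm (Fin n)}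
    {p p' : GL (Fin n) F} (hp : p ∈ Par F a) (hp' : p' ∈ Par F b)
    (h : pmat F w' = p * pmat F w * p') : MM a b w = MM a b w' := by
  have h1 : ∀ (w : Equiv.Perm (Fin n)) (s t : ℕ), Nat.card {v : Fin n → F // Low b t v ∧
      Low a s ((pmat F w : Matrix (Fin n) (Fin n) F) *ᵥ v)} =
        Nat.card F ^ #{j | (a (w j) : ℕ) < s ∧ (b j : ℕ) < t} := by
    intro w s t
    rw [← card_supported]
    refine Nat.card_congr (Equiv.subtypeEquivRight fun v => ⟨fun h j hj => ?_, fun h => ⟨?_, ?_⟩⟩)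
    · by_cases h' : (b j : ℕ) < t
      · rw [← pmat_mulVec w v j]
        exact h.2 _ (by omega)
      · exact h.1 _ (by omega)
    · exact fun j hj => h j (by omega)
    · intro i hi
      obtain ⟨j, rfl⟩ := w.surjective i
      rw [pmat_mulVec]
      exact h j (by omega)
  have h2 : ∀ s t : ℕ, #{j | (a (w' j) : ℕ) < s ∧ (b j : ℕ) < t} =
      #{j | (a (w j) : ℕ) < s ∧ (b j : ℕ) < t} := by
    intro s t
    apply Nat.pow_right_injective (Finite.one_lt_card (α := F))
    simp only
    rw [← h1, ← h1]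
    refine Nat.card_congr (Equiv.subtypeEquiv (MulAction.toPerm p') fun v => ?_)
    rw [h, MulAction.toPerm_apply, Units.smul_def, smul_eq_mulVec, low_mulVec_iff hp',
      Units.val_mul, Units.val_mul, ← mulVec_mulVec, ← mulVec_mulVec, low_mulVec_iff hp]
  have h3 : ∀ (w : Equiv.Perm (Fin n)) (s t : Fin n), MM a b w s t +
      #{j | (a (w j) : ℕ) < s ∧ (b j : ℕ) < t + 1} + #{j | (a (w j) : ℕ) < s + 1 ∧ (b j : ℕ) < t} =
      #{j | (a (w j) : ℕ) < s + 1 ∧ (b j : ℕ) < t + 1} + #{j | (a (w j) : ℕ) < s ∧ (b j : ℕ) < t} := by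
    intro w s t
    simp only [MM, card_filter, ← sum_add_distrib, Fin.ext_iff]
    refine sum_congr rfl fun j _ => ?_
    split_ifs <;> omega
  funext s t
  have k1 := h3 w s t
  have k2 := h3 w' s t
  simp only [h2] at k2
  omega

theorem inner_par [Fintype F] [DecidableEq F] {a b : Fin n → Fin n} {μ ν : Fin n → ℕ}
    (ha : ∀ s, #{i | a i = s} = μ s) (hb : ∀ t, #{i | b i = t} = ν t) (ma : Monotone a)
    (mb : Monotone b) : (Nat.card (GL (Fin n) F) : ℂ)⁻¹ *
      ∑ g, fixedPointCharacter (Par F a) g * fixedPointCharacter (Par F b) g = NN μ ν := by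
  choose w b1 hb1 b2 hb2 hw using bruhat (n := n) (F := F)
  have h1 := fun g => Par_id_le ma (hb1 g)
  have h2 := fun g => Par_id_le mb (hb2 g)
  rw [sum_fixed_mul_fixed _ _ (fun g => MM a b (w g)), ← card_range_MM ha hb]
  · congr 3
    ext M
    refine ⟨fun ⟨g, hg⟩ => ⟨w g, hg⟩, fun ⟨v, hv⟩ => ⟨pmat F v, ?_⟩⟩
    rw [← hv]
    exact MM_eq_of_Par (h1 _) (h2 _) (hw _)
  · intro g g'
    constructor
    · intro h
      obtain ⟨σ, hσ, τ, hτ, e⟩ := (MM_eq_iff a b _ _).1 h
      refine ⟨b1 g' * pmat F σ * (b1 g)⁻¹, mul_mem (mul_mem (h1 _) (pmat_mem_Par hσ))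
        (inv_mem (h1 _)), (b2 g)⁻¹ * pmat F τ * b2 g', mul_mem (mul_mem (inv_mem (h2 _))
        (pmat_mem_Par hτ)) (h2 _), ?_⟩
      have e1 := hw g
      have e2 := hw g'
      rw [e, map_mul, map_mul] at e2
      generalize b1 g = x1, b2 g = x2, b1 g' = y1, b2 g' = y2, w g = u at e1 e2
      rw [e1, e2]
      group
    · rintro ⟨h, hh, k, hk, e⟩
      refine MM_eq_of_Par (p := (b1 g')⁻¹ * h * b1 g) (p' := b2 g * k * (b2 g')⁻¹)
        (mul_mem (mul_mem (inv_mem (h1 _)) hh) (h1 _))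
        (mul_mem (mul_mem (h2 _) hk) (inv_mem (h2 _))) ?_
      have e1 := hw g
      have e2 := hw g'
      generalize b1 g = x1, b2 g = x2, b1 g' = y1, b2 g' = y2, w g = u, w g' = u' at e1 e2
      rw [e1, e2] at e
      rw [show pmat F u' = y1⁻¹ * (y1 * pmat F u' * y2) * y2⁻¹ by group, e]
      group

/-! ### The labelling of a composition -/

theorem lt_compLabel_iff (μ : Fin n → ℕ) (i s : Fin n) :
    (s : ℕ) < compLabel μ i ↔ ∑ k with k ≤ s, μ k ≤ i := by
  have hm : ∀ j j' : Fin n, j ≤ j' → ∑ k with k ≤ j, μ k ≤ ∑ k with k ≤ j', μ k :=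
    fun j j' h => sum_le_sum_of_subset fun k hk => by
      simp only [mem_filter, mem_univ, true_and] at hk ⊢
      exact hk.trans h
  constructor
  · intro h
    by_contra h'
    refine h.not_ge ((card_le_card (t := Iio s) fun j hj => ?_).trans (by simp))
    rw [mem_Iio]
    by_contra hj'
    exact h' ((hm _ _ (not_lt.1 hj')).trans (mem_filter.1 hj).2)
  · intro h
    refine lt_of_lt_of_le (by simp) (card_le_card (s := Iic s) fun j hj => ?_)
    exact mem_filter.2 ⟨mem_univ _, (hm _ _ (mem_Iic.1 hj)).trans h⟩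

theorem compLabel_lt {μ : Fin n → ℕ} (h : ∑ i, μ i = n) (i : Fin n) : compLabel μ i < n := by
  have hn := i.pos
  by_contra hc
  have := (lt_compLabel_iff μ i ⟨n - 1, by omega⟩).1 (by simp only; omega)
  rw [filter_true_of_mem (fun k _ => by rw [Fin.le_def]; simp only; omega), h] at this
  omega

/-- The block labelling of a composition. -/
def lab (μ : Fin n → ℕ) (h : ∑ i, μ i = n) : Fin n → Fin n :=
  fun i => ⟨compLabel μ i, compLabel_lt h i⟩

theorem lab_mono (μ : Fin n → ℕ) (h : ∑ i, μ i = n) : Monotone (lab μ h) := fun i j hij => by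
  change compLabel μ i ≤ compLabel μ j
  refine card_le_card fun k hk => ?_
  simp only [mem_filter, mem_univ, true_and] at hk ⊢
  exact hk.trans hij

theorem card_lab (μ : Fin n → ℕ) (h : ∑ i, μ i = n) (s : Fin n) : #{i | lab μ h i = s} = μ s := by
  have h1 : ∑ k with k ≤ s, μ k = μ s + ∑ k with k < s, μ k := by
    rw [← sum_insert (by simp)]
    congr 1
    ext k
    simp [le_iff_eq_or_lt]
  have h2 : ∑ k with k ≤ s, μ k ≤ n := (sum_le_sum_of_subset (filter_subset _ _)).trans h.le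
  have h3 : ∀ i : Fin n, lab μ h i = s ↔
      (i : ℕ) ∈ Ico (∑ k with k < s, μ k) (∑ k with k ≤ s, μ k) := by
    intro i
    rw [mem_Ico, ← not_le, ← lt_compLabel_iff, Fin.ext_iff]
    have : ∑ k with k < s, μ k ≤ i ↔ (s : ℕ) ≤ compLabel μ i := by
      rcases Nat.eq_zero_or_pos s with h0 | h0
      · rw [filter_false_of_mem (fun k _ => by rw [Fin.lt_def]; omega)]
        simp [h0]
      · have := lt_compLabel_iff μ i ⟨s - 1, by omega⟩
        rw [filter_congr (q := fun k => k < s) (fun k _ => by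
          rw [Fin.le_def, Fin.lt_def]; simp only; omega)] at this
        rw [← this]
        simp only
        omega
    rw [this]
    simp only [lab]
    omega
  simp only [h3]
  rw [← card_map Fin.valEmbedding, show μ s = #(Ico (∑ k with k < s, μ k) (∑ k with k ≤ s, μ k)) by
    rw [Nat.card_Ico]; omega]
  congr 1
  ext j
  simp only [mem_map, mem_filter, mem_univ, true_and, Fin.valEmbedding_apply]
  exact ⟨fun ⟨i, hi, e⟩ => e ▸ hi, fun hj => ⟨⟨j, (mem_Ico.1 hj).2.trans_le h2⟩, hj, rfl⟩⟩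

theorem parabolicGL_eq (μ : Fin n → ℕ) (h : ∑ i, μ i = n) :
    parabolicGL n F μ = Par F (lab μ h) := Subgroup.ext fun _ => Iff.rfl

theorem youngSubgroup_eq (μ : Fin n → ℕ) (h : ∑ i, μ i = n) :
    youngSubgroup μ = Yng (lab μ h) := by
  ext σ
  exact forall_congr' fun i => (Fin.ext_iff (a := lab μ h (σ i)) (b := lab μ h i)).symm

theorem inner_parabolicGL [Fintype F] [DecidableEq F] {μ ν : Fin n → ℕ} (hμ : ∑ i, μ i = n)
    (hν : ∑ i, ν i = n) : (Nat.card (GL (Fin n) F) : ℂ)⁻¹ * ∑ g,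
      fixedPointCharacter (parabolicGL n F μ) g * fixedPointCharacter (parabolicGL n F ν) g =
        NN μ ν := by
  rw [parabolicGL_eq μ hμ, parabolicGL_eq ν hν]
  exact inner_par (card_lab μ hμ) (card_lab ν hν) (lab_mono μ hμ) (lab_mono ν hν)

theorem inner_youngSubgroup {μ ν : Fin n → ℕ} (hμ : ∑ i, μ i = n) (hν : ∑ i, ν i = n) :
    (Nat.card (Equiv.Perm (Fin n)) : ℂ)⁻¹ * ∑ g,
      fixedPointCharacter (youngSubgroup μ) g * fixedPointCharacter (youngSubgroup ν) g =
        NN μ ν := by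
  rw [youngSubgroup_eq μ hμ, youngSubgroup_eq ν hν]
  exact inner_young (card_lab μ hμ) (card_lab ν hν)

end CfsgLib.GLFlag
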