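import Mathlib
import Cfsg.Agent.Lib.GLFlag.Bruhat

/-!
Orders and indices of the standard parabolic subgroups of `GL(n, q)`; degrees and orthonormality
of the unipotent characters.
-/

set_option autoImplicit false

namespace CfsgLib.GLFlag

open Finset Matrix Cfsg CfsgLib.Char
open scoped ComplexConjugate

/-- The `q`-integer. -/
def QI (q r : ℕ) : ℕ := ∑ l ∈ range r, q ^ l

/-- The `q`-factorial. -/
def QF (q r : ℕ) : ℕ := ∏ j ∈ range r, QI q (j + 1)

theorem QI_add (q a b : ℕ) : QI q (a + b) = QI q a + q ^ a * QI q b := by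
  simp only [QI, sum_range_add, pow_add, mul_sum]

theorem QI_succ_pos (q r : ℕ) : 0 < QI q (r + 1) := by
  rw [QI, sum_range_succ']; simp

theorem QF_pos (q r : ℕ) : 0 < QF q r := prod_pos fun _ _ => QI_succ_pos _ _

theorem QI_strictMono {q : ℕ} (hq : 0 < q) : StrictMono (QI q) :=
  strictMono_nat_of_lt_succ fun r => by
    rw [QI, QI, sum_range_succ]
    have := pow_pos hq r
    omega

theorem sub_one_mul_QI {q : ℕ} (hq : 0 < q) (r : ℕ) : (q - 1) * QI q r = q ^ r - 1 := by
  have := Nat.one_le_pow r q hq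
  zify [hq, this, QI]
  exact mul_geom_sum _ _

theorem QF_add (q a b : ℕ) : QF q (a + b) = QF q a * ∏ l ∈ range b, QI q (a + b - l) := by
  rw [QF, prod_range_add, ← prod_range_reflect (fun l => QI q (a + b - l)) b]
  congr 1
  refine prod_congr rfl fun l hl => ?_
  congr 1
  have := mem_range.1 hl
  omega

variable {F : Type*} [Field F] {n : ℕ}

theorem card_GL_eq [Fintype F] (r : ℕ) : Nat.card (GL (Fin r) F) =
    Fintype.card F ^ (∑ i ∈ range r, i) * (Fintype.card F - 1) ^ r * QF (Fintype.card F) r := by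
  have hq : 0 < Fintype.card F := Fintype.card_pos
  rw [Matrix.card_GL_field, Fin.prod_univ_eq_prod_range
    (fun i => Fintype.card F ^ r - Fintype.card F ^ i), prod_congr rfl
    (g := fun i => Fintype.card F ^ i * ((Fintype.card F - 1) * QI (Fintype.card F) (r - i)))
    fun i hi => by
      rw [sub_one_mul_QI hq, Nat.mul_sub, ← pow_add, Nat.add_sub_cancel' (mem_range.1 hi).le,
        mul_one], prod_mul_distrib, prod_mul_distrib, prod_pow_eq_pow_sum, prod_const, card_range,
    mul_assoc]
  have := QF_add (Fintype.card F) 0 r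
  simp only [zero_add] at this
  rw [this]
  simp [QF]

theorem card_Par_eq (a : Fin n → Fin n) : Nat.card (Par F a) =
    (∏ s, Nat.card (GL {i // a i = s} F)) * Nat.card F ^ #{p : Fin n × Fin n | a p.1 < a p.2} := by
  rw [← Fintype.card_subtype, ← Nat.card_eq_fintype_card, ← Nat.card_fun, ← Nat.card_pi,
    ← Nat.card_prod]
  have hdet : ∀ (g : Par F a) s,
      (((g : GL (Fin n) F) : Matrix (Fin n) (Fin n) F).toSquareBlock a s).det ≠ 0 := by
    intro g s
    have := (g : GL (Fin n) F).det_ne_zero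
    rw [Matrix.BlockTriangular.det_fintype g.2, prod_ne_zero_iff] at this
    exact this s (mem_univ _)
  refine Nat.card_congr (Equiv.ofBijective (fun g => (fun s =>
    Matrix.GeneralLinearGroup.mkOfDetNeZero _ (hdet g s),
    fun p => ((g : GL (Fin n) F) : Matrix (Fin n) (Fin n) F) p.1.1 p.1.2)) ⟨?_, ?_⟩)
  · intro g g' h
    obtain ⟨h1, h2⟩ := Prod.ext_iff.1 h
    ext i j
    rcases lt_trichotomy (a i) (a j) with k | k | k
    · exact congrFun h2 ⟨(i, j), k⟩
    · exact congrArg (fun x : GL {i // a i = a j} F => x.1 ⟨i, k⟩ ⟨j, rfl⟩) (congrFun h1 (a j))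
    · rw [mem_Par.1 g.2 i j k, mem_Par.1 g'.2 i j k]
  · rintro ⟨D, U⟩
    let M : Matrix (Fin n) (Fin n) F := fun i j =>
      if h : a i = a j then (D (a j)).1 ⟨i, h⟩ ⟨j, rfl⟩
      else if h' : a i < a j then U ⟨(i, j), h'⟩ else 0
    have hM : M.BlockTriangular a := fun i j h => by
      simp only [M, dif_neg h.ne', dif_neg h.not_gt]
    have hB : ∀ s, M.toSquareBlock a s = D s := by
      intro s
      ext ⟨i, hi⟩ ⟨j, rfl⟩
      exact dif_pos hi
    have hd : M.det ≠ 0 := by
      rw [hM.det_fintype, prod_ne_zero_iff]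
      intro s _
      rw [hB]
      exact (D s).det_ne_zero
    refine ⟨⟨Matrix.GeneralLinearGroup.mkOfDetNeZero M hd, hM⟩, Prod.ext (funext fun s =>
      Units.ext (hB s)) (funext fun p => ?_)⟩
    change M p.1.1 p.1.2 = _
    simp only [M, dif_neg p.2.ne, dif_pos p.2]

theorem card_GL_subtype {m : Type*} [Fintype m] [DecidableEq m] :
    Nat.card (GL m F) = Nat.card (GL (Fin (Fintype.card m)) F) :=
  Nat.card_congr (Units.mapEquiv (Matrix.reindexAlgEquiv F F
    (Fintype.equivFin m)).toMulEquiv).toEquiv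

theorem sum_range_id_eq {a μ : Fin n → ℕ} {b : Fin n → Fin n} (ha : ∀ s, #{i | b i = s} = μ s)
    (ha' : ∀ s, a s = ∑ i ∈ range (μ s), i) :
    ∑ i ∈ range n, i = ∑ s, a s + #{p : Fin n × Fin n | b p.1 < b p.2} := by
  have h0 : ∑ s, μ s = n := by
    simp only [← ha]
    rw [← card_eq_sum_card_fiberwise (by simp)]
    simp
  have h1 : #{p : Fin n × Fin n | b p.1 = b p.2} = ∑ s, μ s * μ s := by
    rw [card_eq_sum_card_fiberwise (f := fun p : Fin n × Fin n => b p.1) (t := univ) (by simp)]
    refine sum_congr rfl fun s _ => ?_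
    rw [← ha, ← card_product]
    congr 1
    ext p
    simp only [mem_filter, mem_univ, true_and, mem_product]
    constructor
    · rintro ⟨h, rfl⟩; exact ⟨rfl, h.symm⟩
    · rintro ⟨rfl, h⟩; exact ⟨h.symm, rfl⟩
  have h2 : #{p : Fin n × Fin n | b p.2 < b p.1} = #{p : Fin n × Fin n | b p.1 < b p.2} :=
    card_equiv (Equiv.prodComm _ _) (by simp)
  have h3 : #{p : Fin n × Fin n | b p.1 = b p.2} + #{p : Fin n × Fin n | b p.2 < b p.1} +
      #{p : Fin n × Fin n | b p.1 < b p.2} = n * n := by
    simp only [card_filter, ← sum_add_distrib, Fin.ext_iff, Fin.lt_def]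
    rw [sum_congr rfl (g := fun _ => 1) fun p _ => by split_ifs <;> omega]
    simp
  have h4 : ∀ r, (∑ i ∈ range r, i) * 2 + r = r * r := fun r => by
    rw [sum_range_id_mul_two]
    cases r <;> simp [mul_add]
  have h5 : (∑ s, a s) * 2 + n = ∑ s, μ s * μ s := by
    simp only [← h4, ha', sum_add_distrib, h0, sum_mul]
  have := h4 n
  omega

theorem index_Par_mul [Fintype F] {a : Fin n → Fin n} {μ : Fin n → ℕ}
    (ha : ∀ s, #{i | a i = s} = μ s) :
    Nat.card (GL (Fin n) F ⧸ Par F a) * ∏ s, QF (Fintype.card F) (μ s) = QF (Fintype.card F) n := by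
  have h0 : ∑ s, μ s = n := by
    simp only [← ha]
    rw [← card_eq_sum_card_fiberwise (by simp)]
    simp
  have h1 := Subgroup.card_eq_card_quotient_mul_card_subgroup (Par F a)
  rw [card_Par_eq, prod_congr rfl fun s _ => by
    rw [card_GL_subtype, Fintype.card_subtype, ha, card_GL_eq], card_GL_eq,
    sum_range_id_eq ha fun _ => rfl, prod_mul_distrib, prod_mul_distrib, prod_pow_eq_pow_sum,
    prod_pow_eq_pow_sum, h0, Nat.card_eq_fintype_card (α := F)] at h1
  have hq : 1 < Fintype.card F := Fintype.one_lt_card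
  have hpos : 0 < Fintype.card F ^ (∑ s, ∑ i ∈ range (μ s), i +
      #{p : Fin n × Fin n | a p.1 < a p.2}) * (Fintype.card F - 1) ^ n :=
    Nat.mul_pos (Nat.pow_pos (Nat.zero_lt_of_lt hq)) (Nat.pow_pos (Nat.sub_pos_of_lt hq))
  refine Nat.eq_of_mul_eq_mul_left hpos ?_
  rw [h1]
  ring

theorem index_parabolicGL_mul [Fintype F] {μ : Fin n → ℕ} (h : ∑ i, μ i = n) :
    Nat.card (GL (Fin n) F ⧸ parabolicGL n F μ) * ∏ s, QF (Fintype.card F) (μ s) =
      QF (Fintype.card F) n := by
  rw [parabolicGL_eq μ h]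
  exact index_Par_mul (card_lab μ h)

theorem fixedPointCharacter_one {G : Type*} [Group G] (H : Subgroup G) :
    fixedPointCharacter H 1 = Nat.card (G ⧸ H) := by
  simp [fixedPointCharacter]

theorem isCharacter_fixedPointCharacter {G : Type*} [Group G] [Finite G] (H : Subgroup G) :
    IsCharacter G (fixedPointCharacter H) := isCharacter_perm (G ⧸ H)

theorem sum_sub_perm {ν : Fin n → ℕ} (hν : ∑ i, ν i = n) {κ : Equiv.Perm (Fin n)}
    (hκ : ∀ i, (κ i : ℕ) ≤ ν i + i) : ∑ i, (ν i + i - κ i) = n := by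
  rw [sum_tsub_distrib _ fun i _ => hκ i, sum_add_distrib, hν,
    Equiv.sum_comp κ (fun i => (i : ℕ)), Nat.add_sub_cancel]

theorem unipotentCharacterGL_eq (ν : Fin n → ℕ) : unipotentCharacterGL n F ν =
    ∑ κ : Equiv.Perm (Fin n), if ∀ i : Fin n, (κ i : ℕ) ≤ ν i + i then
      ((Equiv.Perm.sign κ : ℤ) : ℂ) • fixedPointCharacter (parabolicGL n F fun i => ν i + i - κ i)
      else 0 := by
  funext g
  rw [unipotentCharacterGL, Finset.sum_apply]
  refine sum_congr rfl fun κ _ => ?_
  split_ifs <;> rfl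

theorem isGenChar_unipotent [Finite F] (ν : Fin n → ℕ) :
    IsGeneralizedCharacter _ (unipotentCharacterGL n F ν) := by
  rw [unipotentCharacterGL_eq]
  refine isGenChar_sum _ fun κ _ => ?_
  split_ifs
  · exact isGenChar_intCast_smul _ (isGenChar_of_isCharacter (isCharacter_fixedPointCharacter _))
  · exact isGenChar_zero

theorem classInner_parabolicGL [Fintype F] [DecidableEq F] {μ ν : Fin n → ℕ} (hμ : ∑ i, μ i = n)
    (hν : ∑ i, ν i = n) : classInner (fixedPointCharacter (parabolicGL n F μ))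
      (fixedPointCharacter (parabolicGL n F ν)) = NN μ ν := by
  rw [← inner_parabolicGL (F := F) hμ hν, classInner_def]
  simp [fixedPointCharacter]

theorem strictMono_add {ν : Fin n → ℕ} (h : Monotone ν) : StrictMono fun i : Fin n => ν i + i :=
  fun _ _ hij => Nat.add_lt_add_of_le_of_lt (h hij.le) hij

theorem classInner_unipotent [Fintype F] [DecidableEq F] {ν ν' : Fin n → ℕ} (h : Monotone ν)
    (hs : ∑ i, ν i = n) (h' : Monotone ν') (hs' : ∑ i, ν' i = n) :
    classInner (unipotentCharacterGL n F ν) (unipotentCharacterGL n F ν') =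
      if ν = ν' then 1 else 0 := by
  have h1 := congrArg (Int.cast : ℤ → ℂ) (jt_orthogonality (strictMono_add h) (strictMono_add h'))
  have h2 : ((fun i : Fin n => ν i + i) = fun i : Fin n => ν' i + i) ↔ ν = ν' := by
    simp [funext_iff]
  simp only [h2] at h1
  push_cast at h1
  rw [← h1, unipotentCharacterGL_eq, unipotentCharacterGL_eq, classInner_sum_left]
  refine sum_congr rfl fun κ _ => ?_
  rw [classInner_sum_right]
  refine sum_congr rfl fun κ' _ => ?_
  by_cases k1 : ∀ i : Fin n, (κ i : ℕ) ≤ ν i + i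
  · by_cases k2 : ∀ i : Fin n, (κ' i : ℕ) ≤ ν' i + i
    · rw [if_pos k1, if_pos k2, if_pos ⟨k1, k2⟩, classInner_smul_left, classInner_smul_right,
        classInner_parabolicGL (sum_sub_perm hs k1) (sum_sub_perm hs' k2), map_intCast, mul_assoc]
    · rw [if_neg k2, if_neg (mt And.right k2), classInner_zero_right]
  · rw [if_neg k1, if_neg (mt And.left k1), classInner_zero_left]

theorem sum_sum_range_id (n : ℕ) :
    ∑ j ∈ range n, ∑ l ∈ range j, l = n * (n - 1) * (n - 2) / 6 := by
  have h : ∀ m, 6 * ∑ j ∈ range (m + 2), ∑ l ∈ range j, l = (m + 2) * (m + 1) * m := by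
    intro m
    induction m with
    | zero => simp [sum_range_succ]
    | succ m ih =>
      have := sum_range_id_mul_two (m + 2)
      rw [show m + 2 - 1 = m + 1 from rfl] at this
      rw [show m + 1 + 2 = m + 2 + 1 from rfl, sum_range_succ, mul_add, ih]
      nlinarith
  rcases n with _ | _ | m
  · simp
  · simp
  · have := h m
    simp only [show m + 1 + 1 - 1 = m + 1 from rfl, show m + 1 + 1 - 2 = m from rfl]
    rw [show m + 1 + 1 = m + 2 from rfl]
    omega

theorem prod_QI_sub (q r j : ℕ) : ∏ l ∈ range j, ((QI q r : ℂ) - QI q l) =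
    if j ≤ r then ((q ^ (∑ l ∈ range j, l) * ∏ l ∈ range j, QI q (r - l) : ℕ) : ℂ) else 0 := by
  split_ifs with h
  · rw [← prod_pow_eq_pow_sum, ← prod_mul_distrib, Nat.cast_prod]
    refine prod_congr rfl fun l hl => ?_
    have := QI_add q l (r - l)
    rw [Nat.add_sub_cancel' ((mem_range.1 hl).le.trans h)] at this
    rw [this]
    push_cast
    ring
  · exact prod_eq_zero (mem_range.2 (not_le.1 h)) (sub_self _)

/-- The degree formula for the unipotent characters. -/
theorem unipotent_degree [Fintype F] {ν : Fin n → ℕ} (hs : ∑ i, ν i = n) :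
    unipotentCharacterGL n F ν 1 * (Fintype.card F : ℂ) ^ (n * (n - 1) * (n - 2) / 6) *
        ∏ i : Fin n, (QF (Fintype.card F) (ν i + i) : ℂ) =
      (QF (Fintype.card F) n : ℂ) * ∏ i : Fin n, ∏ j ∈ Ioi i,
        ((QI (Fintype.card F) (ν j + j) : ℂ) - QI (Fintype.card F) (ν i + i)) := by
  set q := Fintype.card F
  rw [← det_vandermonde fun i : Fin n => (QI q (ν i + i) : ℂ),
    det_eval_matrixOfPolynomials_eq_det_vandermonde _
      (fun j : Fin n => ∏ l ∈ range j, (Polynomial.X - Polynomial.C (QI q l : ℂ)))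
      (fun j => by rw [Polynomial.natDegree_finsetProd_X_sub_C_eq_card, card_range])
      (fun j => Polynomial.monic_prod_X_sub_C _ _), ← det_transpose, det_apply',
    unipotentCharacterGL, sum_mul, sum_mul, mul_sum]
  refine sum_congr rfl fun κ _ => ?_
  simp only [transpose_apply, of_apply, Polynomial.eval_prod, Polynomial.eval_sub,
    Polynomial.eval_X, Polynomial.eval_C, prod_QI_sub, prod_ite_zero, mem_univ, true_imp_iff]
  split_ifs with h
  · have h1 := index_parabolicGL_mul (F := F) (sum_sub_perm hs h)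
    have h2 : ∀ i : Fin n, QF q (ν i + i) =
        QF q (ν i + i - κ i) * ∏ l ∈ range (κ i), QI q (ν i + i - l) := fun i => by
      have := QF_add q (ν i + i - κ i) (κ i)
      rwa [Nat.sub_add_cancel (h i)] at this
    rw [fixedPointCharacter_one, ← h1, ← sum_sum_range_id, ← Fin.sum_univ_eq_sum_range,
      ← Equiv.sum_comp κ]
    simp only [h2]
    push_cast
    rw [prod_mul_distrib, prod_mul_distrib, prod_pow_eq_pow_sum]
    ring
  · simp

theorem unipotent_degree_pos [Fintype F] {ν : Fin n → ℕ} (h : Monotone ν) (hs : ∑ i, ν i = n) :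
    0 ≤ (unipotentCharacterGL n F ν 1).re := by
  obtain ⟨m, hm⟩ := exists_genChar_one_eq_int (isGenChar_unipotent (F := F) ν)
  have h1 := unipotent_degree (F := F) hs
  rw [hm] at h1 ⊢
  have h2 : m * (Fintype.card F : ℤ) ^ (n * (n - 1) * (n - 2) / 6) *
        ∏ i : Fin n, (QF (Fintype.card F) (ν i + i) : ℤ) =
      (QF (Fintype.card F) n : ℤ) * ∏ i : Fin n, ∏ j ∈ Ioi i,
        ((QI (Fintype.card F) (ν j + j) : ℤ) - QI (Fintype.card F) (ν i + i)) := by
    exact_mod_cast h1
  have hq : 0 < Fintype.card F := Fintype.card_pos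
  have h3 : 0 ≤ m := by
    rw [mul_assoc] at h2
    refine (nonneg_of_mul_nonneg_left (h2 ▸ mul_nonneg (by positivity)
      (prod_nonneg fun i _ => prod_nonneg fun j hj => ?_)) (mul_pos (by positivity)
        (prod_pos fun i _ => by exact_mod_cast QF_pos _ _)))
    have := QI_strictMono hq (strictMono_add h (mem_Ioi.1 hj))
    simp only at this
    omega
  simpa using h3

theorem isIrr_unipotent [Fintype F] {ν : Fin n → ℕ} (h : Monotone ν) (hs : ∑ i, ν i = n) :
    IsIrrCharacter _ (unipotentCharacterGL n F ν) := by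
  classical
  exact isIrr_of_genChar_norm_one (isGenChar_unipotent ν)
    (by rw [classInner_unipotent h hs h hs, if_pos rfl]) (unipotent_degree_pos h hs)

end CfsgLib.GLFlag
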